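import Cfsg.Agent.H141.Rg.Lin

/-!
# S5714, C2: counting pairs with a given annihilator by invariants (helper120)

* `card_pairs_le` : if the tuple `(v, x v, ..)` is determined up to the group by the invariant `S (x, v)`, the number
  of pairs is at most the number of invariants times the order of the group.
-/

set_option autoImplicit false

namespace Cfsg.Agent.H120.Rg

open Polynomial Module Cfsg.Agent.H141.Rg

section

variable {F V X β : Type*} [Field F] [AddCommGroup V] [Module F V] [Group X]

/-- the tuple of a pair -/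
def tup (τ : X →* (V →ₗ[F] V)) (D : ℕ) (p : X × V) : Fin D → V := fun i => (τ p.1 ^ (i : ℕ)) p.2

open Classical in
/-- an element moving one tuple to another one -/
noncomputable def mv (τ : X →* (V →ₗ[F] V)) {D : ℕ} (t₀ t : Fin D → V) : X :=
  if h : ∃ x : X, ∀ i, τ x (t₀ i) = t i then h.choose else 1

theorem mv_spec {τ : X →* (V →ₗ[F] V)} {D : ℕ} {t₀ t : Fin D → V} (h : ∃ x : X, ∀ i, τ x (t₀ i) = t i) (i : Fin D) :
    τ (mv τ t₀ t) (t₀ i) = t i := by
  unfold mv
  rw [dif_pos h]
  exact h.choose_spec i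

theorem ann_sum {y : V →ₗ[F] V} {v : V} {g : F[X]} (h : Ann y v g) :
    g.coeff 0 • v + ∑ i ∈ Finset.range g.natDegree, g.coeff (i + 1) • (y ^ (i + 1)) v = 0 := by
  have h1 := (h g).2 dvd_rfl
  rw [aeval_eq_sum_range, LinearMap.sum_apply, Finset.sum_range_succ'] at h1
  rw [add_comm]
  simpa using h1

theorem ann_li {y : V →ₗ[F] V} {v : V} {g : F[X]} (h : Ann y v g) :
    LinearIndependent F (fun i : Fin g.natDegree => (y ^ (i : ℕ)) v) := by
  rw [Fintype.linearIndependent_iff]
  intro c hc
  set f : F[X] := ∑ i : Fin g.natDegree, C (c i) * Polynomial.X ^ (i : ℕ) with hf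
  have hco : ∀ i : Fin g.natDegree, f.coeff i = c i := by
    intro i
    rw [hf, finsetSum_coeff, Finset.sum_eq_single i]
    · rw [coeff_C_mul_X_pow, if_pos rfl]
    · intro j _ hj
      rw [coeff_C_mul_X_pow, if_neg (fun h => hj (Fin.ext h.symm))]
    · intro h
      exact absurd (Finset.mem_univ i) h
  have h1 : aeval y f v = 0 := by
    rw [hf, map_sum, LinearMap.sum_apply, ← hc]
    refine Finset.sum_congr rfl fun i _ => ?_
    rw [map_mul, aeval_C, map_pow, aeval_X]
    rfl
  have h2 := (h f).1 h1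
  have h3 : f = 0 := by
    by_contra hne
    have h4 := natDegree_le_of_dvd h2 hne
    have h5 : f.natDegree < g.natDegree := by
      rcases Nat.eq_zero_or_pos g.natDegree with h0 | h0
      · exfalso
        apply hne
        rw [hf]
        apply Finset.sum_eq_zero
        intro i _
        have := i.2
        omega
      · refine lt_of_le_of_lt (natDegree_sum_le_of_forall_le _ _ (n := g.natDegree - 1) ?_) (by omega)
        intro i _
        refine (natDegree_C_mul_X_pow_le _ _).trans ?_
        have := i.2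
        omega
    omega
  intro i
  rw [← hco, h3, coeff_zero]

/-- counting pairs by invariants -/
theorem card_pairs_le [Finite X] [Finite V] (τ : X →* (V →ₗ[F] V)) {g : F[X]} (hg0 : g.coeff 0 ≠ 0) (S : X × V → β)
    (N : Set β) (hN : N.Finite) (hS : ∀ p : X × V, Ann (τ p.1) p.2 g → S p ∈ N)
    (hW : ∀ p p' : X × V, Ann (τ p.1) p.2 g → Ann (τ p'.1) p'.2 g → S p = S p' →
      ∃ x : X, ∀ i : Fin g.natDegree, τ x (tup τ g.natDegree p i) = tup τ g.natDegree p' i) :
    Nat.card {p : X × V // Ann (τ p.1) p.2 g} ≤ Nat.card N * Nat.card X := by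
  classical
  have hfin : Finite N := hN
  let A : Type _ := {p : X × V // Ann (τ p.1) p.2 g}
  rcases isEmpty_or_nonempty A with hA | ⟨⟨a₀⟩⟩
  · have : Nat.card {p : X × V // Ann (τ p.1) p.2 g} = 0 := Nat.card_eq_zero.2 (Or.inl hA)
    rw [this]
    exact Nat.zero_le _
  let base : β → A := fun b => if h : ∃ a : A, S a = b then h.choose else a₀
  have hbase : ∀ a : A, S (base (S a)) = S a := by
    intro a
    have h : ∃ a' : A, S a' = S a := ⟨a, rfl⟩
    show S (if h : ∃ a' : A, S a' = S a then h.choose else a₀ : A) = S a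
    rw [dif_pos h]
    exact h.choose_spec
  let D := g.natDegree
  let Φ : A → N × X := fun a =>
    (⟨S a, hS a a.2⟩, a.1.1 * mv τ (tup τ D (base (S a)).1) (tup τ D a.1) * (base (S a)).1.1⁻¹)
  have hΦ : Function.Injective Φ := by
    intro a b hab
    have h1 : S a = S b := congrArg (fun z : N × X => (z.1 : β)) hab
    have h2 : a.1.1 * mv τ (tup τ D (base (S a)).1) (tup τ D a.1) * (base (S a)).1.1⁻¹ =
        b.1.1 * mv τ (tup τ D (base (S b)).1) (tup τ D b.1) * (base (S b)).1.1⁻¹ := congrArg Prod.snd hab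
    rw [← h1] at h2
    set c := base (S a) with hc
    have hca : S c = S a := hbase a
    have h3 := mul_right_cancel h2
    have ya : ∀ i, τ (mv τ (tup τ D c.1) (tup τ D a.1)) (tup τ D c.1 i) = tup τ D a.1 i :=
      fun i => mv_spec (hW c.1 a.1 c.2 a.2 hca) i
    have yb : ∀ i, τ (mv τ (tup τ D c.1) (tup τ D b.1)) (tup τ D c.1 i) = tup τ D b.1 i :=
      fun i => mv_spec (hW c.1 b.1 c.2 b.2 (hca.trans h1)) i
    have h4 : ∀ i : Fin D, (τ a.1.1 ^ ((i : ℕ) + 1)) a.1.2 = (τ b.1.1 ^ ((i : ℕ) + 1)) b.1.2 := by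
      intro i
      have h5 : τ (a.1.1 * mv τ (tup τ D c.1) (tup τ D a.1)) (tup τ D c.1 i) =
          τ (b.1.1 * mv τ (tup τ D c.1) (tup τ D b.1)) (tup τ D c.1 i) := by rw [h3]
      rw [map_mul, map_mul] at h5
      have h6 : τ a.1.1 (τ (mv τ (tup τ D c.1) (tup τ D a.1)) (tup τ D c.1 i)) =
          τ b.1.1 (τ (mv τ (tup τ D c.1) (tup τ D b.1)) (tup τ D c.1 i)) := h5
      rw [ya, yb] at h6
      rw [pow_succ', pow_succ']
      exact h6
    have h5 : a.1.2 = b.1.2 := by
      have ea := ann_sum a.2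
      have eb := ann_sum b.2
      have hs : ∑ i ∈ Finset.range g.natDegree, g.coeff (i + 1) • (τ a.1.1 ^ (i + 1)) a.1.2 =
          ∑ i ∈ Finset.range g.natDegree, g.coeff (i + 1) • (τ b.1.1 ^ (i + 1)) b.1.2 := by
        refine Finset.sum_congr rfl fun i hi => ?_
        rw [h4 ⟨i, Finset.mem_range.1 hi⟩]
      rw [hs] at ea
      have h6 := add_right_cancel (ea.trans eb.symm)
      exact (smul_right_injective V hg0) h6
    have h6 : tup τ D a.1 = tup τ D b.1 := by
      funext i
      obtain ⟨i, hi⟩ := i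
      cases i with
      | zero => exact h5
      | succ i => exact h4 ⟨i, by omega⟩
    rw [h6] at h3
    exact Subtype.ext (Prod.ext (mul_right_cancel h3) h5)
  have h1 := Nat.card_le_card_of_injective Φ hΦ
  rwa [Nat.card_prod] at h1

end

end Cfsg.Agent.H120.Rg
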