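import Cfsg.Agent.H141.Rg.Lin

/-!
# S5714, C2: recurrent sequences with a hermitian symmetry (helper120)

* `card_sym_sq_le` : the number `N` of sequences `b : ℤ → F` with recurrence `g` and `b (-j) = σ (b j)` satisfies
  `N ^ 2 ≤ |F| ^ ed σ g`.
-/

set_option autoImplicit false

namespace Cfsg.Agent.H120.Rg

open Polynomial Module Cfsg.Agent.H141.Rg

section

variable {F : Type*} [Field F]

/-- the shift -/
def shf (F : Type*) [Field F] : (ℤ → F) →ₗ[F] (ℤ → F) := LinearMap.funLeft F F (fun k => k + 1)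

theorem shf_pow (i : ℕ) (b : ℤ → F) (k : ℤ) : (shf F ^ i) b k = b (k + i) := by
  induction i generalizing k with
  | zero => simp
  | succ i ih =>
    rw [pow_succ']
    show (shf F ^ i) b (k + 1) = _
    rw [ih]
    congr 1
    push_cast
    ring

theorem aeval_shf {p : F[X]} {n : ℕ} (hn : p.natDegree < n) (b : ℤ → F) (k : ℤ) :
    aeval (shf F) p b k = ∑ i ∈ Finset.range n, p.coeff i * b (k + i) := by
  rw [aeval_eq_sum_range' hn, LinearMap.sum_apply, Finset.sum_apply]
  refine Finset.sum_congr rfl fun i _ => ?_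
  rw [LinearMap.smul_apply, Pi.smul_apply, shf_pow, smul_eq_mul]

/-- a recurrent sequence with a zero window vanishes -/
theorem eq_zero_of_window {d : F[X]} (hd0 : d.coeff 0 ≠ 0) {b : ℤ → F} (hb : aeval (shf F) d b = 0)
    (h0 : ∀ i : ℕ, i < d.natDegree → b i = 0) : b = 0 := by
  have hd : d ≠ 0 := by
    rintro rfl
    exact hd0 (coeff_zero 0)
  have hlc : d.coeff d.natDegree ≠ 0 := by
    rw [coeff_natDegree]
    exact leadingCoeff_ne_zero.2 hd
  have hrel : ∀ k : ℤ, ∑ i ∈ Finset.range (d.natDegree + 1), d.coeff i * b (k + i) = 0 := by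
    intro k
    rw [← aeval_shf (Nat.lt_succ_self _), hb]
    rfl
  have hpos : ∀ n : ℕ, b n = 0 := by
    intro n
    induction n using Nat.strong_induction_on with
    | _ n ih =>
      rcases lt_or_ge n d.natDegree with h | h
      · exact h0 n h
      · have h1 := hrel ((n : ℤ) - d.natDegree)
        rw [Finset.sum_range_succ, Finset.sum_eq_zero, zero_add, sub_add_cancel] at h1
        · exact (mul_eq_zero.1 h1).resolve_left hlc
        · intro i hi
          rw [Finset.mem_range] at hi
          have h2 : ((n : ℤ) - d.natDegree + i) = ((n - d.natDegree + i : ℕ) : ℤ) := by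
            push_cast [h]
            ring
          rw [h2, ih _ (by omega), mul_zero]
  have hneg : ∀ n : ℕ, b (-n) = 0 := by
    intro n
    induction n using Nat.strong_induction_on with
    | _ n ih =>
      have h1 := hrel (-(n : ℤ))
      rw [Finset.sum_range_succ', Finset.sum_eq_zero, zero_add] at h1
      · simp only [Nat.cast_zero, add_zero] at h1
        exact (mul_eq_zero.1 h1).resolve_left hd0
      · intro i _
        rcases le_or_gt n (i + 1) with h | h
        · have h2 : (-(n : ℤ) + ((i + 1 : ℕ) : ℤ)) = ((i + 1 - n : ℕ) : ℤ) := by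
            rw [Nat.cast_sub h]
            ring
          rw [h2, hpos, mul_zero]
        · have h2 : (-(n : ℤ) + ((i + 1 : ℕ) : ℤ)) = -((n - (i + 1) : ℕ) : ℤ) := by
            rw [Nat.cast_sub h.le]
            ring
          rw [h2, ih _ (by omega), mul_zero]
  funext k
  rcases Int.eq_nat_or_neg k with ⟨n, rfl | rfl⟩
  · exact hpos n
  · exact hneg n

/-- recurrent sequences -/
def Rec (d : F[X]) : Set (ℤ → F) := {b | aeval (shf F) d b = 0}

theorem rec_inj {d : F[X]} (hd0 : d.coeff 0 ≠ 0) :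
    Function.Injective (fun b : Rec d => fun i : Fin d.natDegree => (b : ℤ → F) (i : ℕ)) := by
  intro b c h
  apply Subtype.ext
  have h1 : aeval (shf F) d ((b : ℤ → F) - c) = 0 := by
    rw [map_sub, show aeval (shf F) d (b : ℤ → F) = 0 from b.2, show aeval (shf F) d (c : ℤ → F) = 0 from c.2, sub_zero]
  refine sub_eq_zero.1 (eq_zero_of_window hd0 h1 fun i hi => ?_)
  exact sub_eq_zero.2 (congrFun h ⟨i, hi⟩)

theorem rec_finite [Finite F] {d : F[X]} (hd0 : d.coeff 0 ≠ 0) : Finite (Rec d) := Finite.of_injective _ (rec_inj hd0)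

theorem card_rec_le [Finite F] {d : F[X]} (hd0 : d.coeff 0 ≠ 0) : Nat.card (Rec d) ≤ Nat.card F ^ d.natDegree := by
  refine (Nat.card_le_card_of_injective _ (rec_inj hd0)).trans (le_of_eq ?_)
  rw [Nat.card_fun, Nat.card_fin]

theorem rec_gcd {g h : F[X]} {b : ℤ → F} (hg : b ∈ Rec g) (hh : b ∈ Rec h) :
    b ∈ Rec (open Classical in EuclideanDomain.gcd g h) := by
  classical
  show aeval (shf F) (EuclideanDomain.gcd g h) b = 0
  rw [EuclideanDomain.gcd_eq_gcd_ab g h, map_add, mul_comm g, mul_comm h, map_mul, map_mul]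
  show aeval (shf F) _ (aeval (shf F) g b) + aeval (shf F) _ (aeval (shf F) h b) = 0
  rw [show aeval (shf F) g b = 0 from hg, show aeval (shf F) h b = 0 from hh, map_zero, map_zero, add_zero]

/-- sequences with the symmetry -/
def Sy (σ : F →+* F) (g : F[X]) : Set (ℤ → F) := {b | b ∈ Rec g ∧ ∀ j, b (-j) = σ (b j)}

theorem sy_str {σ : F →+* F} {g : F[X]} {b : ℤ → F} (hb : b ∈ Sy σ g) : b ∈ Rec (str σ g) := by
  obtain ⟨h1, h2⟩ := hb
  have hdeg : (g.map σ).natDegree = g.natDegree := natDegree_map σ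
  have hlt : (str σ g).natDegree < g.natDegree + 1 := by
    have := reverse_natDegree_le (g.map σ)
    rw [hdeg] at this
    exact Nat.lt_succ_of_le this
  show aeval (shf F) (str σ g) b = 0
  funext k
  rw [aeval_shf hlt, Pi.zero_apply, ← Finset.sum_range_reflect]
  have h3 : ∀ j ∈ Finset.range (g.natDegree + 1), (str σ g).coeff (g.natDegree + 1 - 1 - j) *
      b (k + ((g.natDegree + 1 - 1 - j : ℕ) : ℤ)) = σ (g.coeff j * b (-k - g.natDegree + j)) := by
    intro j hj
    rw [Finset.mem_range] at hj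
    unfold str
    rw [coeff_reverse, hdeg, Nat.add_sub_cancel, revAt_le (by omega), coeff_map, map_mul, ← h2]
    congr 3
    · omega
    · push_cast [show j ≤ g.natDegree by omega]
      ring
  rw [Finset.sum_congr rfl h3, ← map_sum, ← aeval_shf (Nat.lt_succ_self _), show aeval (shf F) g b = 0 from h1,
    Pi.zero_apply, map_zero]

theorem sy_rec {σ : F →+* F} {g : F[X]} {b : ℤ → F} (hb : b ∈ Sy σ g) :
    b ∈ Rec (open Classical in EuclideanDomain.gcd g (str σ g)) := rec_gcd hb.1 (sy_str hb)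

theorem gcd_coeff {g h : F[X]} (hg0 : g.coeff 0 ≠ 0) : (open Classical in EuclideanDomain.gcd g h).coeff 0 ≠ 0 := by
  classical
  obtain ⟨c, hc⟩ := EuclideanDomain.gcd_dvd_left g h
  intro h0
  apply hg0
  have h1 := congrArg (fun p : F[X] => p.coeff 0) hc
  simp only [mul_coeff_zero] at h1
  rw [h1, h0, zero_mul]

theorem sy_finite [Finite F] (σ : F →+* F) {g : F[X]} (hg0 : g.coeff 0 ≠ 0) : (Sy σ g).Finite := by
  have h1 : (Rec (open Classical in EuclideanDomain.gcd g (str σ g))).Finite := rec_finite (gcd_coeff hg0)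
  exact h1.subset fun b hb => sy_rec hb

/-- the bound -/
theorem card_sym_sq_le [Finite F] {σ : F →+* F} (hσ : σ ≠ RingHom.id F) {g : F[X]} (hg0 : g.coeff 0 ≠ 0) :
    Nat.card (Sy σ g) ^ 2 ≤ Nat.card F ^ ed σ g := by
  classical
  obtain ⟨l, hl⟩ : ∃ l, σ l ≠ l := by
    by_contra hcon
    push Not at hcon
    exact hσ (RingHom.ext hcon)
  have hd0 := gcd_coeff (h := str σ g) hg0
  have hfin := rec_finite hd0
  let Φ : Sy σ g × Sy σ g → Rec (EuclideanDomain.gcd g (str σ g)) := fun p =>
    ⟨(p.1 : ℤ → F) + l • (p.2 : ℤ → F), by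
      show aeval (shf F) _ _ = 0
      rw [map_add, map_smul]
      have e1 : aeval (shf F) (EuclideanDomain.gcd g (str σ g)) (p.1 : ℤ → F) = 0 := sy_rec p.1.2
      have e2 : aeval (shf F) (EuclideanDomain.gcd g (str σ g)) (p.2 : ℤ → F) = 0 := sy_rec p.2.2
      rw [e1, e2, smul_zero, add_zero]⟩
  have hΦ : Function.Injective Φ := by
    rintro ⟨b, b'⟩ ⟨c, c'⟩ h
    have h1 : ∀ j, (b : ℤ → F) j + l * (b' : ℤ → F) j = (c : ℤ → F) j + l * (c' : ℤ → F) j := fun j =>
      congrFun (congrArg Subtype.val h) j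
    have h2 : ∀ j, (b' : ℤ → F) j = (c' : ℤ → F) j := by
      intro j
      have e1 := h1 j
      have e2 := h1 (-j)
      rw [b.2.2, b'.2.2, c.2.2, c'.2.2] at e2
      have e3 := congrArg σ e1
      rw [map_add, map_add, map_mul, map_mul] at e3
      have e4 : (l - σ l) * (σ ((b' : ℤ → F) j) - σ ((c' : ℤ → F) j)) = 0 := by linear_combination e2 - e3
      rcases mul_eq_zero.1 e4 with h | h
      · exact absurd (sub_eq_zero.1 h).symm hl
      · exact σ.injective (sub_eq_zero.1 h)
    have h3 : ∀ j, (b : ℤ → F) j = (c : ℤ → F) j := by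
      intro j
      have e1 := h1 j
      rw [h2] at e1
      exact add_right_cancel e1
    exact Prod.ext (Subtype.ext (funext h3)) (Subtype.ext (funext h2))
  have h1 := Nat.card_le_card_of_injective Φ hΦ
  rw [Nat.card_prod, ← sq] at h1
  exact h1.trans (card_rec_le hd0)

end

end Cfsg.Agent.H120.Rg
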