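import Cfsg.Agent.H141.Rg.Act
import Cfsg.Agent.H120.Rg.Fib
import Cfsg.Agent.H120.Rg.Seq
import Cfsg.Agent.H91.U.Std
import Cfsg.Agent.H450.UF.Sub

/-!
# S5714, C2: the unitary groups (helper120)

* `el_gu`, `el_su`
-/

set_option autoImplicit false

namespace Cfsg.Agent.H120.Rg

open Cfsg Polynomial Module Cfsg.Agent.H141.Rg Cfsg.Agent.H91.U Cfsg.Agent.H450.UF

section

variable {F V X : Type*} [Field F] [AddCommGroup V] [Module F V] [Group X] {σ : F →+* F} {B : V →ₛₗ[σ] V →ₗ[F] F}

/-- the invariant of a pair -/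
def sq' (B : V →ₛₗ[σ] V →ₗ[F] F) (τ : X →* (V →ₗ[F] V)) (p : X × V) : ℤ → F := fun j => B p.2 (τ (p.1 ^ j) p.2)

theorem sq_mem (hB : HForm B) {τ : X →* (V →ₗ[F] V)} (hτ : ∀ x v w, B (τ x v) (τ x w) = B v w) {g : F[X]}
    {p : X × V} (hp : Ann (τ p.1) p.2 g) : sq' B τ p ∈ Sy σ g := by
  obtain ⟨x, v⟩ := p
  constructor
  · show aeval (shf F) g _ = 0
    funext k
    rw [aeval_shf (Nat.lt_succ_self _), Pi.zero_apply]
    have h1 := (hp g).2 dvd_rfl
    rw [aeval_eq_sum_range] at h1
    have h2 : ∀ i ∈ Finset.range (g.natDegree + 1), g.coeff i * sq' B τ (x, v) (k + i) =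
        B v (τ (x ^ k) ((g.coeff i • τ x ^ i) v)) := by
      intro i _
      show g.coeff i * B v (τ (x ^ (k + (i : ℤ))) v) = _
      rw [zpow_add, zpow_natCast, map_mul, map_pow, LinearMap.smul_apply, map_smul, map_smul, smul_eq_mul]
      rfl
    rw [Finset.sum_congr rfl h2, ← map_sum, ← map_sum, ← LinearMap.sum_apply, h1, map_zero, map_zero]
  · intro j
    show B v (τ (x ^ (-j)) v) = σ (B v (τ (x ^ j) v))
    rw [← hτ (x ^ j) v]
    have h1 : τ (x ^ j) (τ (x ^ (-j)) v) = v := by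
      have : τ (x ^ j) (τ (x ^ (-j)) v) = (τ (x ^ j * x ^ (-j))) v := by
        rw [map_mul]
        rfl
      rw [this, ← zpow_add, add_neg_cancel, zpow_zero, map_one]
      rfl
    rw [h1]
    exact hB.swap _ _

theorem gram {τ : X →* (V →ₗ[F] V)} (hτ : ∀ x v w, B (τ x v) (τ x w) = B v w) (p : X × V) {D : ℕ}
    (i j : Fin D) : B (tup τ D p i) (tup τ D p j) = sq' B τ p ((j : ℤ) - i) := by
  obtain ⟨x, v⟩ := p
  show B ((τ x ^ (i : ℕ)) v) ((τ x ^ (j : ℕ)) v) = B v (τ (x ^ ((j : ℤ) - i)) v)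
  rw [← hτ (x ^ (i : ℕ)) v, map_pow]
  congr 1
  have : (τ x ^ (i : ℕ)) (τ (x ^ ((j : ℤ) - i)) v) = (τ (x ^ (i : ℕ) * x ^ ((j : ℤ) - i))) v := by
    rw [map_mul, map_pow]
    rfl
  rw [this, ← zpow_natCast, ← zpow_add, add_sub_cancel, zpow_natCast, map_pow]

/-- the abstract bound -/
theorem el_of [Finite F] [Finite V] [Finite X] (hB : HForm B) {τ : X →* (V →ₗ[F] V)}
    (hτ : ∀ x v w, B (τ x v) (τ x w) = B v w) {g : F[X]} (hg0 : g.coeff 0 ≠ 0)
    (hW : ∀ t t' : Fin g.natDegree → V, LinearIndependent F t → LinearIndependent F t' →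
      (∀ i j, B (t i) (t j) = B (t' i) (t' j)) → ∃ x : X, ∀ i, τ x (t i) = t' i) :
    (Nat.card {p : X × V // Ann (τ p.1) p.2 g} : ℝ) ≤ Real.sqrt ((Nat.card F : ℝ) ^ ed σ g) * Nat.card X := by
  have h1 := card_pairs_le τ hg0 (sq' B τ) (Sy σ g) (sy_finite σ hg0) (fun p hp => sq_mem hB hτ hp) (by
    intro p p' hp hp' h
    refine hW _ _ (ann_li hp) (ann_li hp') fun i j => ?_
    rw [gram hτ, gram hτ, h])
  have h2 := card_sym_sq_le hB.ne_id hg0
  have h3 : (Nat.card (Sy σ g) : ℝ) ≤ Real.sqrt ((Nat.card F : ℝ) ^ ed σ g) := by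
    apply Real.le_sqrt_of_sq_le
    exact_mod_cast h2
  calc (Nat.card {p : X × V // Ann (τ p.1) p.2 g} : ℝ) ≤ (Nat.card (Sy σ g) * Nat.card X : ℕ) := by exact_mod_cast h1
    _ = (Nat.card (Sy σ g) : ℝ) * Nat.card X := by push_cast; rfl
    _ ≤ _ := by gcongr

/-- an isometry with prescribed determinant fixing a small subspace -/
theorem exists_fix_det [Finite F] [FiniteDimensional F V] (hB : HForm B) {W : Submodule F V}
    (h : 2 * finrank F W < finrank F V) {a : F} (ha : a * σ a = 1) :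
    ∃ t : V ≃ₗ[F] V, (∀ x y, B (t x) (t y) = B x y) ∧ (∀ w ∈ W, t w = w) ∧ LinearMap.det (t : V →ₗ[F] V) = a := by
  obtain ⟨u, hu, huu⟩ : ∃ u ∈ pp B W, B u u ≠ 0 := by
    by_contra hcon
    push Not at hcon
    have hti : ∀ x ∈ pp B W, ∀ y ∈ pp B W, B x y = 0 := by
      intro x hx y hy
      by_contra hxy
      have h1 : ∀ c : F, c * B x y + σ (c * B x y) = 0 := by
        intro c
        have h2 := hcon (x + c • y) ((pp B W).add_mem hx ((pp B W).smul_mem c hy))
        have h3 := hcon x hx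
        have h4 := hcon y hy
        have h5 := hB.swap y x
        simp only [map_add, LinearMap.add_apply, smul_left, smul_right, h3, h4, h5] at h2
        rw [map_mul]
        linear_combination h2
      have h2 : ∀ m : F, m + σ m = 0 := by
        intro m
        have := h1 (m / B x y)
        rwa [div_mul_cancel₀ _ hxy] at this
      apply hB.ne_id
      refine RingHom.ext fun m => ?_
      have e1 := h2 m
      have e2 := h2 1
      rw [map_one] at e2
      show σ m = m
      linear_combination e1 - m * e2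
    have h1 : pp B W ≤ pp B (pp B W) := fun x hx => fun y hy => hti x hx y hy
    have h2 := Submodule.finrank_mono h1
    have h3 := finrank_pp hB W
    have h4 := finrank_pp hB (pp B W)
    omega
  set N := B u u with hN
  have hNs : σ N = N := self_fix hB u
  let T : V →ₗ[F] V := LinearMap.transvection (((a - 1) / N) • B u) u
  have hT : ∀ x, T x = x + ((a - 1) / N * B u x) • u := fun x => by
    rw [LinearMap.transvection.apply]
    rfl
  have hdet : LinearMap.det T = a := by
    rw [LinearMap.transvection.det, LinearMap.smul_apply, smul_eq_mul, ← hN, div_mul_cancel₀ _ huu]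
    ring
  have ha0 : a ≠ 0 := by
    rintro rfl
    rw [zero_mul] at ha
    exact zero_ne_one ha
  let t : V ≃ₗ[F] V := LinearEquiv.ofIsUnitDet (f := T) (v := Module.finBasis F V) (v' := Module.finBasis F V) (by
    rw [LinearMap.det_toMatrix, hdet]
    exact isUnit_iff_ne_zero.2 ha0)
  have ht : ∀ x, t x = x + ((a - 1) / N * B u x) • u := hT
  refine ⟨t, ?_, ?_, hdet⟩
  · intro x y
    have h1 := hB.swap x u
    rw [ht, ht]
    simp only [map_add, LinearMap.add_apply, smul_left, smul_right, map_mul, map_sub, map_one, map_div₀, hNs, ← hN, h1]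
    field_simp
    linear_combination (σ (B u x) * B u y) * ha
  · intro w hw
    rw [ht, hu w hw, mul_zero, zero_smul, add_zero]

end

section

variable {F : Type} [Field F] [Fintype F] {n q : ℕ}

theorem gu_apply (x : GU n F q) (v : Fin n → F) :
    guAct n F q x v = (((x : GL (Fin n) F) : Matrix (Fin n) (Fin n) F)).mulVec v := rfl

theorem su_apply (x : SU n F q) (v : Fin n → F) :
    suAct n F q x v = (((x : Matrix.SpecialLinearGroup (Fin n) F) : Matrix (Fin n) (Fin n) F)).mulVec v := rfl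

theorem gu_iso (hF : Fintype.card F = q ^ 2) (x : GU n F q) (v w : Fin n → F) :
    sB hF n (guAct n F q x v) (guAct n F q x w) = sB hF n v w := x.2 w v

theorem su_iso (hF : Fintype.card F = q ^ 2) (x : SU n F q) (v w : Fin n → F) :
    sB hF n (suAct n F q x v) (suAct n F q x w) = sB hF n v w := x.2 w v

theorem gu_witt (hF : Fintype.card F = q ^ 2) {D : ℕ} (t t' : Fin D → Fin n → F) (ht : LinearIndependent F t)
    (ht' : LinearIndependent F t') (h : ∀ i j, sB hF n (t i) (t j) = sB hF n (t' i) (t' j)) :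
    ∃ x : GU n F q, ∀ i, guAct n F q x (t i) = t' i := by
  obtain ⟨g, hg, hgw⟩ := witt_family (hform_sB hF n) ht ht' h
  have h1 : ∀ v, (LinearMap.toMatrix' (g : (Fin n → F) →ₗ[F] (Fin n → F))).mulVec v = g v := fun v =>
    LinearMap.toMatrix'_mulVec _ _
  let u : GL (Fin n) F :=
    { val := LinearMap.toMatrix' (g : (Fin n → F) →ₗ[F] (Fin n → F))
      inv := LinearMap.toMatrix' (g.symm : (Fin n → F) →ₗ[F] (Fin n → F))
      val_inv := by
        rw [← LinearMap.toMatrix'_comp]
        simp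
      inv_val := by
        rw [← LinearMap.toMatrix'_comp]
        simp }
  refine ⟨⟨u, fun x y => ?_⟩, fun i => ?_⟩
  · show hermForm n F q ((LinearMap.toMatrix' (g : (Fin n → F) →ₗ[F] (Fin n → F))).mulVec x)
      ((LinearMap.toMatrix' (g : (Fin n → F) →ₗ[F] (Fin n → F))).mulVec y) = _
    rw [h1, h1]
    exact hg y x
  · show (LinearMap.toMatrix' (g : (Fin n → F) →ₗ[F] (Fin n → F))).mulVec (t i) = _
    rw [h1, hgw]

theorem su_witt (hF : Fintype.card F = q ^ 2) {D : ℕ} (hD : 2 * D < n) (t t' : Fin D → Fin n → F)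
    (ht : LinearIndependent F t)
    (ht' : LinearIndependent F t') (h : ∀ i j, sB hF n (t i) (t j) = sB hF n (t' i) (t' j)) :
    ∃ x : SU n F q, ∀ i, suAct n F q x (t i) = t' i := by
  have hB := hform_sB hF n
  obtain ⟨g, hg, hgw⟩ := witt_family hB ht ht' h
  have hd := det_isom hB hg
  have hd0 : LinearMap.det (g : (Fin n → F) →ₗ[F] (Fin n → F)) ≠ 0 := by
    intro h0
    rw [h0, zero_mul] at hd
    exact zero_ne_one hd
  obtain ⟨s, hs, hsf, hsd⟩ := exists_fix_det hB (W := Submodule.span F (Set.range t')) (by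
    rw [finrank_span_eq_card ht', Fintype.card_fin, finrank_std]
    exact hD) (a := (LinearMap.det (g : (Fin n → F) →ₗ[F] (Fin n → F)))⁻¹) (by
    rw [map_inv₀, ← mul_inv, hd, inv_one])
  let k : (Fin n → F) ≃ₗ[F] (Fin n → F) := g.trans s
  have hkd : LinearMap.det (k : (Fin n → F) →ₗ[F] (Fin n → F)) = 1 := by
    rw [LinearEquiv.coe_trans, LinearMap.det_comp, hsd, inv_mul_cancel₀ hd0]
  have h1 : ∀ v, (LinearMap.toMatrix' (k : (Fin n → F) →ₗ[F] (Fin n → F))).mulVec v = k v := fun v =>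
    LinearMap.toMatrix'_mulVec _ _
  have hki : ∀ x y, sB hF n (k x) (k y) = sB hF n x y := fun x y => (hs _ _).trans (hg _ _)
  refine ⟨⟨⟨LinearMap.toMatrix' (k : (Fin n → F) →ₗ[F] (Fin n → F)), by rw [LinearMap.det_toMatrix', hkd]⟩,
    fun x y => ?_⟩, fun i => ?_⟩
  · show hermForm n F q ((LinearMap.toMatrix' (k : (Fin n → F) →ₗ[F] (Fin n → F))).mulVec x)
      ((LinearMap.toMatrix' (k : (Fin n → F) →ₗ[F] (Fin n → F))).mulVec y) = _
    rw [h1, h1]
    exact hki y x
  · show (LinearMap.toMatrix' (k : (Fin n → F) →ₗ[F] (Fin n → F))).mulVec (t i) = _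
    rw [h1]
    show s (g (t i)) = t' i
    rw [hgw]
    exact hsf _ (Submodule.subset_span ⟨i, rfl⟩)

end

theorem sig_eq {F : Type} [Field F] [Fintype F] {q : ℕ} (hF : Fintype.card F = q ^ 2) (σ : F →+* F)
    (hσ : ∀ x, σ x = x ^ q) :
    σ = ((Cfsg.Agent.LieClassical.HermBasic.conj hF : F ≃+* F) : F →+* F) := RingHom.ext hσ

/-- **C2, `GU`** -/
theorem el_gu (n q : ℕ) (F : Type) [Field F] [Finite F] (hF : Nat.card F = q ^ 2) (σ : F →+* F)
    (hσ : ∀ x, σ x = x ^ q) : EL σ (guAct n F q) 1 (fun _ => 1) := by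
  have : Fintype F := Fintype.ofFinite F
  rw [Nat.card_eq_fintype_card] at hF
  obtain rfl := sig_eq hF σ hσ
  intro g _ hg0 _
  have hfin : Finite (GU n F q) := inferInstance
  rw [one_mul]
  exact el_of (hform_sB hF n) (gu_iso hF) hg0 (gu_witt hF)

theorem card_gu_le (n q : ℕ) (F : Type) [Field F] [Finite F] :
    Nat.card (GU n F q) ≤ Nat.card F * Nat.card (SU n F q) := by
  let δ : GU n F q →* Fˣ := (Matrix.GeneralLinearGroup.det).comp (GU n F q).subtype
  have h1 : Nat.card δ.ker ≤ Nat.card (SU n F q) := by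
    let f : δ.ker → SU n F q := fun x => ⟨⟨(((x : GU n F q) : GL (Fin n) F) : Matrix (Fin n) (Fin n) F), by
      have h2 : δ (x : GU n F q) = 1 := x.2
      exact congrArg (fun u : Fˣ => (u : F)) h2⟩, (x : GU n F q).2⟩
    refine Nat.card_le_card_of_injective f fun x y h => ?_
    apply Subtype.ext
    apply Subtype.ext
    apply Units.ext
    exact congrArg (fun z : SU n F q => ((z : Matrix.SpecialLinearGroup (Fin n) F) : Matrix (Fin n) (Fin n) F)) h
  have h2 : Nat.card δ.range ≤ Nat.card F := by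
    refine (Nat.card_le_card_of_injective (fun u : δ.range => ((u : Fˣ) : F)) ?_)
    intro u v h
    exact Subtype.ext (Units.ext h)
  rw [← Subgroup.card_mul_index δ.ker, Subgroup.index_ker, mul_comm]
  exact Nat.mul_le_mul h2 h1

/-- **C2, `SU`** -/
theorem el_su (n q : ℕ) (F : Type) [Field F] [Finite F] (hF : Nat.card F = q ^ 2) (σ : F →+* F)
    (hσ : ∀ x, σ x = x ^ q) : EL σ (suAct n F q) 1 (fun D => if 2 * D < n then 1 else Nat.card F) := by
  intro g hm hg0 hc
  by_cases hD : 2 * g.natDegree < n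
  · beta_reduce
    rw [if_pos hD]
    have : Fintype F := Fintype.ofFinite F
    rw [Nat.card_eq_fintype_card] at hF
    obtain rfl := sig_eq hF σ hσ
    rw [one_mul]
    exact el_of (hform_sB hF n) (su_iso hF) hg0 (su_witt hF hD)
  · beta_reduce
    rw [if_neg hD]
    have h1 := el_gu n q F hF σ hσ g hm hg0 hc
    rw [one_mul] at h1
    have h2 : Nat.card {p : SU n F q × (Fin n → F) // Ann (suAct n F q p.1) p.2 g} ≤
        Nat.card {p : GU n F q × (Fin n → F) // Ann (guAct n F q p.1) p.2 g} := by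
      let ι : SU n F q → GU n F q := fun x => ⟨Matrix.SpecialLinearGroup.toGL (x : Matrix.SpecialLinearGroup (Fin n) F), x.2⟩
      have hι : Function.Injective ι := by
        intro x y h
        apply Subtype.ext
        apply Matrix.SpecialLinearGroup.ext
        intro i j
        exact congrArg (fun z : GU n F q => ((z : GL (Fin n) F) : Matrix (Fin n) (Fin n) F) i j) h
      refine Nat.card_le_card_of_injective (fun p => ⟨(ι p.1.1, p.1.2), p.2⟩) ?_
      rintro ⟨⟨x, v⟩, hx⟩ ⟨⟨y, w⟩, hy⟩ h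
      have h3 := congrArg Subtype.val h
      simp only [Prod.mk.injEq] at h3
      obtain ⟨h4, h5⟩ := h3
      have h6 := hι h4
      subst h6
      subst h5
      rfl
    have h3 : (Nat.card (GU n F q) : ℝ) ≤ Nat.card F * Nat.card (SU n F q) := by
      exact_mod_cast card_gu_le n q F
    calc (Nat.card {p : SU n F q × (Fin n → F) // Ann (suAct n F q p.1) p.2 g} : ℝ)
        ≤ Nat.card {p : GU n F q × (Fin n → F) // Ann (guAct n F q p.1) p.2 g} := by exact_mod_cast h2
      _ ≤ Real.sqrt ((Nat.card F : ℝ) ^ ed σ g) * Nat.card (GU n F q) := h1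
      _ ≤ Real.sqrt ((Nat.card F : ℝ) ^ ed σ g) * (Nat.card F * Nat.card (SU n F q)) := by gcongr
      _ = _ := by ring

end Cfsg.Agent.H120.Rg
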